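import Mathlib

/-!
# Pairs of involutions in the alternating group of degree five
-/

set_option autoImplicit false

namespace Cfsg.Agent.HJOrder

open Equiv

/-- The involutions of degree five of sign one. -/
def inv5 : Finset (Perm (Fin 5)) :=
  Finset.univ.filter fun p => p * p = 1 ∧ p ≠ 1 ∧ Perm.sign p = 1

theorem card_inv5 : inv5.card = 15 := by
  set_option maxRecDepth 100000 in decide +kernel

theorem card_commuting5 : ∀ a ∈ inv5, (inv5.filter fun b => a * b = b * a).card = 3 := by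
  set_option maxRecDepth 100000 in decide +kernel

theorem card_odd5 : ((inv5 ×ˢ inv5).filter fun p => (p.1 * p.2) ^ 15 = 1).card = 195 := by
  set_option maxRecDepth 100000 in decide +kernel

variable {G : Type*} [Group G] {B : Subgroup G}

theorem orderOf_two_iff {M : Type*} [Monoid M] {a : M} : orderOf a = 2 ↔ a * a = 1 ∧ a ≠ 1 := by
  rw [orderOf_eq_prime_iff, pow_two]

/-- The involutions of `B ≅ A₅` as permutations. -/
noncomputable def involEquiv (e : B ≃* alternatingGroup (Fin 5)) :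
    {u : G // u ∈ B ∧ orderOf u = 2} ≃ {p : Perm (Fin 5) // p ∈ inv5} where
  toFun u := ⟨(e ⟨u.1, u.2.1⟩ : alternatingGroup (Fin 5)), by
    have h : orderOf ((e ⟨u.1, u.2.1⟩ : alternatingGroup (Fin 5)) : Perm (Fin 5)) = 2 := by
      rw [Subgroup.orderOf_coe, MulEquiv.orderOf_eq, Subgroup.orderOf_mk]; exact u.2.2
    obtain ⟨h1, h2⟩ := orderOf_two_iff.1 h
    simp only [inv5, Finset.mem_filter, Finset.mem_univ, true_and]
    exact ⟨h1, h2, Perm.mem_alternatingGroup.1 (e ⟨u.1, u.2.1⟩).2⟩⟩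
  invFun p := ⟨(e.symm ⟨p.1, Perm.mem_alternatingGroup.2 (Finset.mem_filter.1 p.2).2.2.2⟩ : B),
    (e.symm _).2, by
      rw [Subgroup.orderOf_coe, MulEquiv.orderOf_eq, Subgroup.orderOf_mk]
      exact orderOf_two_iff.2 ⟨(Finset.mem_filter.1 p.2).2.1, (Finset.mem_filter.1 p.2).2.2.1⟩⟩
  left_inv u := Subtype.ext (by simp)
  right_inv p := Subtype.ext (by simp)

theorem involEquiv_mul (e : B ≃* alternatingGroup (Fin 5))
    (u v : {u : G // u ∈ B ∧ orderOf u = 2}) :
    ((involEquiv e u).1 * (involEquiv e v).1 : Perm (Fin 5)) =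
      (e (⟨u.1, u.2.1⟩ * ⟨v.1, v.2.1⟩) : alternatingGroup (Fin 5)) := by
  rw [map_mul]; rfl

theorem card_invol (e : B ≃* alternatingGroup (Fin 5)) :
    Nat.card {u : G // u ∈ B ∧ orderOf u = 2} = 15 := by
  rw [Nat.card_congr (involEquiv e), Nat.card_eq_fintype_card, Fintype.card_coe, card_inv5]

theorem card_invol_commute (e : B ≃* alternatingGroup (Fin 5)) {a : G} (ha : a ∈ B)
    (ha2 : orderOf a = 2) :
    Nat.card {u : G // (u ∈ B ∧ orderOf u = 2) ∧ Commute a u} = 3 := by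
  rw [← Nat.card_congr (Equiv.subtypeSubtypeEquivSubtypeInter (fun u : G => u ∈ B ∧ orderOf u = 2)
    (fun u => Commute a u))]
  rw [Nat.card_congr ((involEquiv e).subtypeEquiv
    (q := fun p => (involEquiv e ⟨a, ha, ha2⟩).1 * p.1 = p.1 * (involEquiv e ⟨a, ha, ha2⟩).1)
    fun v => ?_)]
  · rw [Nat.card_congr (Equiv.subtypeSubtypeEquivSubtypeInter (fun p : Perm (Fin 5) => p ∈ inv5)
      (fun p => (involEquiv e ⟨a, ha, ha2⟩).1 * p = p * (involEquiv e ⟨a, ha, ha2⟩).1)),
      Nat.card_eq_fintype_card, Fintype.card_of_subtype _ (fun p => Finset.mem_filter)]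
    exact card_commuting5 _ (involEquiv e ⟨a, ha, ha2⟩).2
  · rw [involEquiv_mul, involEquiv_mul]
    constructor
    · intro h
      exact congrArg (fun w => ((e w : alternatingGroup (Fin 5)) : Perm (Fin 5))) (Subtype.ext h.eq)
    · intro h
      exact congrArg Subtype.val (e.injective (Subtype.ext h))

theorem card_invol_pairs (e : B ≃* alternatingGroup (Fin 5)) :
    Nat.card {p : {u : G // u ∈ B ∧ orderOf u = 2} × {u : G // u ∈ B ∧ orderOf u = 2} //
      Odd (orderOf (p.1.1 * p.2.1))} = 195 := by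
  rw [Nat.card_congr (((involEquiv e).prodCongr (involEquiv e)).subtypeEquiv
    (q := fun p => (p.1.1 * p.2.1) ^ 15 = 1) fun p => ?_)]
  · rw [Nat.card_congr
      { toFun := fun p : {p : {q : Perm (Fin 5) // q ∈ inv5} × {q : Perm (Fin 5) // q ∈ inv5} //
            (p.1.1 * p.2.1) ^ 15 = 1} =>
          (⟨(p.1.1.1, p.1.2.1), Finset.mem_filter.2 ⟨Finset.mem_product.2 ⟨p.1.1.2, p.1.2.2⟩, p.2⟩⟩ :
            {q // q ∈ (inv5 ×ˢ inv5).filter fun p => (p.1 * p.2) ^ 15 = 1})
        invFun := fun q => ⟨(⟨q.1.1, (Finset.mem_product.1 (Finset.mem_filter.1 q.2).1).1⟩,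
          ⟨q.1.2, (Finset.mem_product.1 (Finset.mem_filter.1 q.2).1).2⟩),
          (Finset.mem_filter.1 q.2).2⟩
        left_inv := fun p => rfl
        right_inv := fun q => rfl },
      Nat.card_eq_fintype_card, Fintype.card_coe, card_odd5]
  · obtain ⟨u, v⟩ := p
    show Odd (orderOf (u.1 * v.1)) ↔ ((involEquiv e u).1 * (involEquiv e v).1) ^ 15 = 1
    rw [involEquiv_mul, ← orderOf_dvd_iff_pow_eq_one, Subgroup.orderOf_coe, MulEquiv.orderOf_eq]
    have hd : orderOf ((⟨u.1, u.2.1⟩ : B) * ⟨v.1, v.2.1⟩) ∣ 60 := by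
      have := orderOf_dvd_natCard (e (⟨u.1, u.2.1⟩ * ⟨v.1, v.2.1⟩))
      rw [MulEquiv.orderOf_eq, nat_card_alternatingGroup, Nat.card_fin] at this
      simpa [Nat.factorial] using this
    rw [show orderOf (u.1 * v.1) = orderOf ((⟨u.1, u.2.1⟩ : B) * ⟨v.1, v.2.1⟩) from
      (Subgroup.orderOf_coe ((⟨u.1, u.2.1⟩ : B) * ⟨v.1, v.2.1⟩))]
    generalize orderOf ((⟨u.1, u.2.1⟩ : B) * ⟨v.1, v.2.1⟩) = m at hd ⊢
    have := Nat.le_of_dvd (by norm_num) hd
    interval_cases m <;> simp_all (config := {decide := true})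

end Cfsg.Agent.HJOrder
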