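import Mathlib

/-!
# Involutions of an extraspecial group of order 32

If their number (outside the centre) is even and divisible by five, there are ten of them.
-/

set_option autoImplicit false

namespace Cfsg.Agent.HJOrder

variable {G : Type*} [Group G] [DecidableEq G] {z : G}

/-- A finite set closed under products with central `z`, all squares and commutators in `⟨z⟩`. -/
structure Ext (z : G) (S : Finset G) : Prop where
  z_ne : z ≠ 1
  z_sq : z * z = 1
  z_mem : z ∈ S
  one_mem : (1 : G) ∈ S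
  mul_mem : ∀ a ∈ S, ∀ b ∈ S, a * b ∈ S
  z_comm : ∀ a ∈ S, z * a = a * z
  sq : ∀ a ∈ S, a * a = 1 ∨ a * a = z
  dich : ∀ a ∈ S, ∀ b ∈ S, a * b = b * a ∨ a * b = z * (b * a)

theorem Ext.inv_mem {S : Finset G} (h : Ext z S) {a : G} (ha : a ∈ S) : a⁻¹ ∈ S := by
  rcases h.sq a ha with e | e
  · rwa [inv_eq_of_mul_eq_one_right e]
  · rw [inv_eq_of_mul_eq_one_right (show a * (z * a) = 1 by
      rw [← mul_assoc, ← h.z_comm a ha, mul_assoc, e, h.z_sq])]
    exact h.mul_mem _ h.z_mem _ ha

/-- The commutant of `u` in `S` is again such a set. -/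
theorem Ext.filter {S : Finset G} (h : Ext z S) {u : G} (hu : u ∈ S) :
    Ext z (S.filter fun a => a * u = u * a) := by
  have hm : ∀ {a}, a ∈ S.filter (fun a => a * u = u * a) → a ∈ S := fun ha =>
    (Finset.mem_filter.1 ha).1
  refine ⟨h.z_ne, h.z_sq, Finset.mem_filter.2 ⟨h.z_mem, h.z_comm u hu⟩,
    Finset.mem_filter.2 ⟨h.one_mem, by rw [one_mul, mul_one]⟩, fun a ha b hb => ?_,
    fun a ha => h.z_comm a (hm ha), fun a ha => h.sq a (hm ha),
    fun a ha b hb => h.dich a (hm ha) b (hm hb)⟩
  obtain ⟨ha, ha'⟩ := Finset.mem_filter.1 ha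
  obtain ⟨hb, hb'⟩ := Finset.mem_filter.1 hb
  exact Finset.mem_filter.2 ⟨h.mul_mem a ha b hb, by rw [mul_assoc, hb', ← mul_assoc, ha', mul_assoc]⟩

/-- Half of `S` commutes with a non-central involution `u`, and a quarter are involutions
anticommuting with it. -/
theorem Ext.quarters {S : Finset G} (h : Ext z S) {u b : G} (hu : u ∈ S) (hu2 : u * u = 1)
    (hb : b ∈ S) (hbu : b * u ≠ u * b) :
    2 * (S.filter fun a => a * u = u * a).card = S.card ∧
      4 * (S.filter fun a => a * u ≠ u * a ∧ a * a = 1).card = S.card := by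
  set A := S.filter fun a => a * u ≠ u * a with hA
  set C := S.filter fun a => a * u = u * a with hC
  have hsum : C.card + A.card = S.card := Finset.card_filter_add_card_filter_not _
  have hanti : ∀ a ∈ S, a * u ≠ u * a → a * u = z * (u * a) := fun a ha hne =>
    (h.dich a ha u hu).resolve_left hne
  have hb' := hanti b hb hbu
  have hCA : C.card = A.card := by
    refine Finset.card_bij' (fun a _ => a * b) (fun a _ => a * b⁻¹) ?_ ?_
      (fun a _ => mul_inv_cancel_right a b) (fun a _ => inv_mul_cancel_right a b)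
    · intro a ha
      obtain ⟨haS, hau⟩ := Finset.mem_filter.1 ha
      refine Finset.mem_filter.2 ⟨h.mul_mem a haS b hb, fun e => hbu ?_⟩
      exact mul_left_cancel (a := a) (by rw [← mul_assoc, e, ← mul_assoc a u, hau, mul_assoc])
    · intro a ha
      obtain ⟨haS, hau⟩ := Finset.mem_filter.1 ha
      refine Finset.mem_filter.2 ⟨h.mul_mem a haS _ (h.inv_mem hb), ?_⟩
      have hb2 : b⁻¹ * u = z * (u * b⁻¹) := by
        rcases h.dich b⁻¹ (h.inv_mem hb) u hu with e | e
        · exact absurd (by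
            calc b * u = b * (u * b⁻¹) * b := by group
              _ = u * b := by rw [← e]; group) hbu
        · exact e
      calc a * b⁻¹ * u = a * (b⁻¹ * u) := mul_assoc _ _ _
        _ = z * (a * u * b⁻¹) := by
            rw [hb2, ← mul_assoc a z, ← h.z_comm a haS, mul_assoc z a, ← mul_assoc a u]
        _ = z * z * (u * (a * b⁻¹)) := by rw [hanti a haS hau]; simp only [mul_assoc]
        _ = u * (a * b⁻¹) := by rw [h.z_sq, one_mul]
  have hsq : ∀ a ∈ A, (a * u) * (a * u) = z * (a * a) := fun a ha => by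
    obtain ⟨haS, hau⟩ := Finset.mem_filter.1 ha
    have e : u * a = z * (a * u) := by rw [hanti a haS hau, ← mul_assoc, h.z_sq, one_mul]
    calc a * u * (a * u) = a * (u * a) * u := by simp only [mul_assoc]
      _ = z * (a * a) * (u * u) := by
          rw [e, ← mul_assoc a z, ← h.z_comm a haS]; simp only [mul_assoc]
      _ = z * (a * a) := by rw [hu2, mul_one]
  have hmemA : ∀ a ∈ A, a * u ∈ A := fun a ha => by
    obtain ⟨haS, hau⟩ := Finset.mem_filter.1 ha
    refine Finset.mem_filter.2 ⟨h.mul_mem a haS u hu, fun e => hau ?_⟩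
    exact mul_right_cancel (b := u) (by rw [e, mul_assoc])
  have h1 : (A.filter fun a => a * a = 1).card = (A.filter fun a => ¬ a * a = 1).card := by
    refine Finset.card_bij' (fun a _ => a * u) (fun a _ => a * u) ?_ ?_
      (fun a _ => by rw [mul_assoc, hu2, mul_one]) (fun a _ => by rw [mul_assoc, hu2, mul_one])
    · intro a ha
      obtain ⟨haA, ha1⟩ := Finset.mem_filter.1 ha
      exact Finset.mem_filter.2 ⟨hmemA a haA, by rw [hsq a haA, ha1, mul_one]; exact h.z_ne⟩
    · intro a ha
      obtain ⟨haA, ha1⟩ := Finset.mem_filter.1 ha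
      refine Finset.mem_filter.2 ⟨hmemA a haA, ?_⟩
      rw [hsq a haA, (h.sq a (Finset.mem_filter.1 haA).1).resolve_left ha1, h.z_sq]
  have h2 := Finset.card_filter_add_card_filter_not (s := A) fun a => a * a = 1
  have h3 : A.filter (fun a => a * a = 1) = S.filter (fun a => a * u ≠ u * a ∧ a * a = 1) := by
    rw [hA, Finset.filter_filter]
  rw [h3] at h1 h2
  omega

/-- The count. -/
theorem Ext.card_eq_ten {S : Finset G} (h : Ext z S) (h32 : S.card = 32)
    (hcen : ∀ a ∈ S, a ≠ 1 → a ≠ z → ∃ b ∈ S, b * a ≠ a * b) (U : Finset G)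
    (hU : ∀ a, a ∈ U ↔ a ∈ S ∧ a * a = 1 ∧ a ≠ 1 ∧ a ≠ z) (hne : U.Nonempty)
    (h5 : U.card % 5 = 0) (h2 : 2 ∣ U.card) : U.card = 10 := by
  obtain ⟨u, hu⟩ := hne
  obtain ⟨huS, hu2, hu1, huz⟩ := (hU u).1 hu
  have hsplit : ∀ w ∈ U, U.card + 2 = 8 + ((S.filter fun a => a * w = w * a).filter
      fun a => a * a = 1).card ∧ (S.filter fun a => a * w = w * a).card = 16 := by
    intro w hw
    obtain ⟨hwS, hw2, hw1, hwz⟩ := (hU w).1 hw
    obtain ⟨b, hb, hbw⟩ := hcen w hwS hw1 hwz
    obtain ⟨q1, q2⟩ := h.quarters hwS hw2 hb hbw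
    have e : (S.filter fun a => a * a = 1) = U ∪ {1, z} := by
      ext a
      simp only [Finset.mem_filter, Finset.mem_union, Finset.mem_insert, Finset.mem_singleton, hU]
      constructor
      · rintro ⟨h1, h2⟩
        by_cases e1 : a = 1
        · exact Or.inr (Or.inl e1)
        by_cases e2 : a = z
        · exact Or.inr (Or.inr e2)
        exact Or.inl ⟨h1, h2, e1, e2⟩
      · rintro (⟨h1, h2, -, -⟩ | rfl | rfl)
        exacts [⟨h1, h2⟩, ⟨h.one_mem, mul_one 1⟩, ⟨h.z_mem, h.z_sq⟩]
    have hd : Disjoint U ({1, z} : Finset G) := by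
      rw [Finset.disjoint_right]
      intro a ha h1
      simp only [Finset.mem_insert, Finset.mem_singleton] at ha
      obtain ⟨-, -, e1, e2⟩ := (hU a).1 h1
      rcases ha with rfl | rfl <;> contradiction
    have hc := Finset.card_union_of_disjoint hd
    rw [← e, Finset.card_pair (Ne.symm h.z_ne)] at hc
    have h4 := Finset.card_filter_add_card_filter_not (s := S.filter fun a => a * a = 1)
      fun a => a * w = w * a
    rw [Finset.filter_comm, Finset.filter_filter (fun a => a * a = 1)] at h4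
    have e' : (S.filter fun a => a * a = 1 ∧ ¬ a * w = w * a) =
        S.filter fun a => a * w ≠ w * a ∧ a * a = 1 := Finset.filter_congr fun a _ => and_comm
    rw [e'] at h4
    omega
  obtain ⟨hsu, hMu⟩ := hsplit u hu
  set M := S.filter fun a => a * u = u * a with hM
  have hMext : Ext z M := h.filter huS
  have hle := Finset.card_filter_le M fun a => a * a = 1
  by_contra hne
  -- twenty members: then fourteen elements of `M` square to one
  have h14 : 14 ≤ (M.filter fun a => a * a = 1).card := by omega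
  have hcM : ∀ w ∈ M, w * w = 1 → ∀ b ∈ M, b * w = w * b := by
    intro w hw hw2 b hb
    by_contra hbw
    obtain ⟨q1, q2⟩ := hMext.quarters hw hw2 hb hbw
    have h4 := Finset.card_filter_add_card_filter_not (s := M.filter fun a => a * a = 1)
      fun a => a * w = w * a
    rw [Finset.filter_comm, Finset.filter_filter (fun a => a * a = 1)] at h4
    have h5 := Finset.card_filter_le (M.filter fun a => a * w = w * a) fun a => a * a = 1
    have e' : (M.filter fun a => a * a = 1 ∧ ¬ a * w = w * a) =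
        M.filter fun a => a * w ≠ w * a ∧ a * a = 1 := Finset.filter_congr fun a _ => and_comm
    rw [e'] at h4
    omega
  have heq : ∀ w ∈ M, w * w = 1 → w ≠ 1 → w ≠ z → (S.filter fun a => a * w = w * a) = M := by
    intro w hw hw2 hw1 hwz
    refine (Finset.eq_of_subset_of_card_le (fun b hb => ?_) ?_).symm
    · exact Finset.mem_filter.2 ⟨(Finset.mem_filter.1 hb).1, hcM w hw hw2 b hb⟩
    · have := (hsplit w ((hU w).2 ⟨(Finset.mem_filter.1 hw).1, hw2, hw1, hwz⟩)).2
      omega
  obtain ⟨w, hw, hwn⟩ := Finset.exists_mem_notMem_of_card_lt_card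
    (show ({1, z, u, z * u} : Finset G).card < (M.filter fun a => a * a = 1).card from
      lt_of_le_of_lt Finset.card_le_four (by omega))
  simp only [Finset.mem_insert, Finset.mem_singleton, not_or] at hwn
  obtain ⟨hwM, hw2⟩ := Finset.mem_filter.1 hw
  have hwS := (Finset.mem_filter.1 hwM).1
  obtain ⟨b, hb, hbu⟩ := hcen u huS hu1 huz
  have hbM : b ∉ M := fun e => hbu (Finset.mem_filter.1 e).2
  have hwu : w * u = u * w := (Finset.mem_filter.1 hwM).2
  have hp : w * u ∈ M := hMext.mul_mem w hwM u (Finset.mem_filter.2 ⟨huS, rfl⟩)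
  have hp2 : (w * u) * (w * u) = 1 := by
    calc w * u * (w * u) = w * (u * w) * u := by simp only [mul_assoc]
      _ = (w * w) * (u * u) := by rw [← hwu]; simp only [mul_assoc]
      _ = 1 := by rw [hw2, hu2, mul_one]
  have hp1 : w * u ≠ 1 := fun e =>
    hwn.2.2.1 ((eq_inv_of_mul_eq_one_left e).trans (inv_eq_of_mul_eq_one_right hu2))
  have hpz : w * u ≠ z := fun e => hwn.2.2.2 (by rw [← e, mul_assoc, hu2, mul_one])
  have hn : ∀ c ∈ M, c * c = 1 → c ≠ 1 → c ≠ z → b * c = z * (c * b) := fun c hc h2' h1' h3' =>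
    (h.dich b hb c (Finset.mem_filter.1 hc).1).resolve_left fun e => hbM (by
      rw [← heq c hc h2' h1' h3']; exact Finset.mem_filter.2 ⟨hb, e⟩)
  have hbw := hn w hwM hw2 hwn.1 hwn.2.1
  have hbp := hn _ hp hp2 hp1 hpz
  have hbu' := (h.dich b hb u huS).resolve_left hbu
  refine h.z_ne ?_
  have e : b * (w * u) = w * u * b := by
    calc b * (w * u) = z * (w * (b * u)) := by rw [← mul_assoc, hbw]; simp only [mul_assoc]
      _ = z * z * (w * u * b) := by
          rw [hbu', ← mul_assoc w z, ← h.z_comm w hwS]; simp only [mul_assoc]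
      _ = w * u * b := by rw [h.z_sq, one_mul]
  rw [hbp] at e
  exact mul_eq_right.1 e

end Cfsg.Agent.HJOrder
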